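import Cfsg.Agent.Th5.C
import Cfsg.Agent.Pgp.A
import Cfsg.Agent.BG2.P3a

/-! A `3'`-group `H` acting on an elementary abelian `3`-group `V` with an element `b` of order `3`
with `|[V,b]| ≤ 9`: odd order subgroups are centralized by `b` as soon as `b` acts on a four-group. -/

set_option autoImplicit false
set_option linter.unusedSectionVars false
open Subgroup Cfsg CF.BG CF.BG2 CF.Th5
open scoped commutatorElement

namespace CF.Cub

variable {G : Type*} [Group G] [Finite G]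

structure Cb (V H : Subgroup G) (b : G) : Prop where
  ab : Abelem 3 V
  pi : PiGrp {3}ᶜ H
  sol : Sol H
  nV : H ≤ 𝐍 V
  bV : zpowers b ≤ 𝐍 V
  bH : zpowers b ≤ 𝐍 H
  b3 : orderOf b = 3
  faith : H ⊓ 𝐂 V = ⊥
  nine : ♯⁅V, zpowers b⁆ ≤ 9

/-- a four-group on which `b` acts non-trivially. -/
structure Fo (H : Subgroup G) (b : G) (Q : Subgroup G) : Prop where
  el : Elem 2 2 Q H
  nm : zpowers b ≤ 𝐍 Q
  nc : ¬ zpowers b ≤ 𝐂 Q

variable {V H K Q U W X T : Subgroup G} {b q : G}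

theorem pow3_cases {n : ℕ} (h : PiNat {3} n) (h0 : n ≠ 0) (l : n ≤ 81) :
    n = 1 ∨ n = 3 ∨ n = 9 ∨ n = 27 ∨ n = 81 := by
  obtain ⟨k, rfl⟩ := h.exists_pow h0
  have : k ≤ 4 := (Nat.pow_le_pow_iff_right (by norm_num : 1 < 3)).1 l
  interval_cases k <;> simp

namespace Cb

theorem cardB (h : Cb V H b) : ♯(zpowers b) = 3 := by rw [Nat.card_zpowers, h.b3]

theorem piB (h : Cb V H b) : PiGrp {3} (zpowers b) := piGrp_of_card_prime Nat.prime_three h.cardB

theorem copB (h : Cb V H b) (k : K ≤ H) : (♯(zpowers b)).Coprime (♯K) :=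
  PiNat.coprime h.piB (h.pi.le k)

theorem copV (h : Cb V H b) (k : K ≤ H) (w : W ≤ V) : (♯K).Coprime (♯W) :=
  PiNat.coprime' (h.pi.le k) (h.ab.pi.le w)

theorem oddB (h : Cb V H b) : Odd (♯(zpowers b)) := by rw [h.cardB]; decide

theorem cl (h : Cb V H b) (k : K ≤ H) : ⁅V, K⁆ ≤ V := comm_le_left (k.trans h.nV)

theorem fix (h : Cb V H b) (k : K ≤ H) : ⁅V, K⁆ ⊓ 𝐂 K = ⊥ :=
  h.ab.abel.comm_inf_cent (k.trans h.nV) (h.copV k le_rfl)

theorem triv (h : Cb V H b) (k : K ≤ H) (c : ⁅V, K⁆ ≤ 𝐂 K) : K = ⊥ :=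
  eq_bot_mono h.faith (le_inf k (cent_of_comm_le_cent (k.trans h.nV) (h.copV k le_rfl) c))

theorem frob (h : Cb V H b) (k : K ≤ H) (n : zpowers b ≤ 𝐍 K) (k1 : K ≠ ⊥)
    (f : K ⊓ 𝐂 (zpowers b) = ⊥) :
    ♯⁅V, K⁆ = 27 ∧ ⁅V, zpowers b⁆ ≤ ⁅V, K⁆ ∧ ♯⁅V, zpowers b⁆ = 9 := by
  set W := ⁅V, K⁆
  have wv : W ≤ V := h.cl k
  have nb : zpowers b ≤ 𝐍 W := norm_commutator h.bV n
  have w := wielandt_abelem (reg_of_prime (by rw [h.cardB]; norm_num) f) n (h.sol.mono k)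
    (h.ab.le wv) Nat.prime_three (sup_le (norm_comm_right V K) nb) (h.pi.le k)
  have e1 : W ⊓ 𝐂 K = ⊥ := h.fix k
  have e2 : W ⊓ 𝐂 (K ⊔ zpowers b) = ⊥ := eq_bot_mono e1 (inf_le_inf_left _ (cent_anti le_sup_left))
  rw [e1, e2, card_bot, h.cardB, one_pow, one_mul, mul_one, cent_zpowers] at w
  have i := CF.Pgp.relIndex_cent1_le (Q := W) (x := b) (Z := ⁅W, zpowers b⁆)
    fun q hq => commutator_mem_commutator hq (mem_zpowers b)
  have m := card_inf_mul_relIndex (𝐂₁ b) W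
  rw [inf_comm] at m
  have l : ⁅W, zpowers b⁆ ≤ ⁅V, zpowers b⁆ := commutator_mono wv le_rfl
  have l9 := (card_le l).trans h.nine
  set c := ♯(W ⊓ 𝐂₁ b)
  have c0 : 0 < c := card_pos' _
  have w1 : 1 < ♯W := one_lt_card.2 fun e => k1 (h.triv k (by rw [show ⁅V, K⁆ = ⊥ from e]; exact bot_le))
  have r : (𝐂₁ b).relIndex W = c ^ 2 := by
    refine Nat.eq_of_mul_eq_mul_left c0 ?_
    rw [m, w]; ring
  have c3 : c = 3 := by
    have : c ≤ 3 := by nlinarith
    have p : PiNat {3} c := h.ab.pi.le (inf_le_left.trans wv)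
    rcases pow3_cases p c0.ne' (by omega) with e | e | e | e | e
    · rw [e] at w; omega
    all_goals omega
  rw [c3] at r w
  have e := eq_of_card_le l (by have := h.nine; omega)
  exact ⟨by omega, e ▸ comm_le_left nb, by have := card_le l; have := h.nine; omega⟩

theorem card_dvd_of (h : Cb V H b) (k : X ≤ H) (w : W ≤ V) (c : ⁅V, X⁆ ≤ W) (l : ♯W ≤ 81) :
    ♯X ∣ 33280 := by
  have n : X ≤ 𝐍 W := norm_of_comm_le ((commutator_mono w le_rfl).trans c)
  have f : 𝐂 W ⊓ X = ⊥ := h.triv (inf_le_right.trans k)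
    (((commutator_mono le_rfl inf_le_right).trans c).trans (cent_symm inf_le_left))
  have d : ♯X ∣ 33280 * 729 := by
    obtain ⟨m, e⟩ := (h.ab.pi.le w).card_pow
    have := idx_dvd Nat.prime_three (h.ab.le w) e n
    rw [relIndex_of_inf_bot f] at this
    have m4 : m ≤ 4 := (Nat.pow_le_pow_iff_right (by norm_num : 1 < 3)).1 (e ▸ l)
    refine this.trans ?_
    interval_cases m <;> simp [Finset.prod_range_succ]
  have : (♯X).Coprime 729 :=
    ((piNat_compl_single_iff_coprime Nat.prime_three).1 (h.pi.le k)).pow_right 6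
  exact this.dvd_of_dvd_mul_right d

theorem gen (h : Cb V H b) {t : G} (ht : t ∈ H) (k : X ≤ H) (l : X ≤ zpowers b ⊔ cj t (zpowers b)) :
    ♯X ∣ 33280 := by
  have tv : cj t V = V := cj_of_norm (h.nV ht)
  have d : ⁅V, zpowers b⁆ ≤ V := comm_le_left h.bV
  have e : cj t ⁅V, zpowers b⁆ = ⁅V, cj t (zpowers b)⁆ := by rw [cj_comm, tv]
  have d' : ⁅V, cj t (zpowers b)⁆ ≤ V := e ▸ cj_le_of_norm (h.nV ht) d
  refine h.card_dvd_of k (sup_le d d') ((commutator_mono le_rfl l).trans (comm_sup_le' le_sup_left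
    le_sup_right (norm_of_comm_le ((commutator_mono (sup_le d d') le_rfl).trans le_sup_left))
    (norm_of_comm_le ((commutator_mono (sup_le d d') le_rfl).trans le_sup_right)))) ?_
  have := Nat.le_of_dvd (Nat.mul_pos (card_pos' _) (card_pos' _))
    (card_sup_dvd (Or.inl (norm_of_cent (h.ab.abel.cent d d'))))
  rw [← e, card_cj] at this
  rw [← e]
  nlinarith [h.nine]

end Cb

theorem Fo.le (f : Fo H b Q) : Q ≤ H := f.el.le

theorem Fo.ne_bot (f : Fo H b Q) : Q ≠ ⊥ := f.el.ne_bot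

theorem Fo.irr (f : Fo H b Q) (h : Cb V H b) (u : U ≤ Q) (n : zpowers b ≤ 𝐍 U) (u1 : U ≠ ⊥) :
    U = Q := v4_irr f.el f.nm h.oddB f.nc u n u1

theorem Fo.fix (f : Fo H b Q) (h : Cb V H b) : Q ⊓ 𝐂 (zpowers b) = ⊥ := by
  by_contra c
  have := f.irr h inf_le_left (norm_inf_cent f.nm (le_norm_self _)) c
  exact f.nc (cent_symm (this ▸ inf_le_right))

theorem Fo.comm (f : Fo H b Q) (h : Cb V H b) : ⁅Q, zpowers b⁆ = Q :=
  f.irr h (comm_le_left f.nm) (norm_comm_right _ _) fun e => f.nc (comm_eq_bot'.1 e)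

theorem Fo.frob (f : Fo H b Q) (h : Cb V H b) :
    ♯⁅V, Q⁆ = 27 ∧ ⁅V, zpowers b⁆ ≤ ⁅V, Q⁆ ∧ ♯⁅V, zpowers b⁆ = 9 :=
  h.frob f.le f.nm f.ne_bot (f.fix h)

theorem Fo.lt (f : Fo H b Q) (h : Cb V H b) (hq : q ∈ Q) (q1 : q ≠ 1) : ⁅V, Q⁆ ⊓ 𝐂₁ q < ⁅V, Q⁆ := by
  refine lt_of_le_of_ne inf_le_left fun e => q1 ?_
  have z : zpowers q ≤ Q := zpowers_le.2 hq
  refine eq_one_of_mem_bot (h.triv (z.trans f.le) ?_) (mem_zpowers q)
  rw [cent_zpowers]
  exact (commutator_mono le_rfl z).trans (e ▸ inf_le_right)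

theorem small13 {n : ℕ} (h : n ∣ 512 ∨ n ∣ 5 ∨ n ∣ 13 ∨ n ∣ 9) (d : ℕ) (hd : d ∣ n)
    (e : n ≡ d [MOD 13]) : d = n := by
  unfold Nat.ModEq at e
  rcases h with h | h | h | h
  · obtain ⟨i, hi, rfl⟩ := (Nat.dvd_prime_pow Nat.prime_two (i := n) (m := 9)).1 h
    obtain ⟨j, hj, rfl⟩ := (Nat.dvd_prime_pow Nat.prime_two).1 hd
    interval_cases i <;> interval_cases j <;> simp_all
  all_goals
    have := Nat.le_of_dvd (by norm_num) h
    have := Nat.le_of_dvd (by norm_num) (hd.trans h)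
    interval_cases n <;> interval_cases d <;> simp_all

theorem prime_pow_dvd {n r : ℕ} (k : PiNat {r} n) (h : n ∣ 33280) : n ∣ 512 ∨ n ∣ 5 ∨ n ∣ 13 := by
  have cop : ∀ p : ℕ, p.Prime → p ≠ r → n.Coprime p := fun p hp ne =>
    (piNat_compl_single_iff_coprime hp).1 (k.to_compl_single ne)
  by_cases h2 : r = 2
  · subst h2
    exact Or.inl (((cop 5 (by norm_num) (by norm_num)).mul_right
      (cop 13 (by norm_num) (by norm_num))).dvd_of_dvd_mul_right h)
  have h' : n ∣ 5 * 13 := ((cop 2 Nat.prime_two (Ne.symm h2)).pow_right 9).dvd_of_dvd_mul_left h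
  by_cases h5 : r = 5
  · subst h5
    exact Or.inr (Or.inl ((cop 13 (by norm_num) (by norm_num)).dvd_of_dvd_mul_right h'))
  · exact Or.inr (Or.inr ((cop 5 (by norm_num) (Ne.symm h5)).dvd_of_dvd_mul_left h'))

theorem Fo.no13 (f : Fo H b Q) (h : Cb V H b) (u : U ≤ H) (n : zpowers b ≤ 𝐍 U) (c : ♯U = 13) :
    zpowers b ≤ 𝐂 U := by
  by_contra nc
  have p13 : Nat.Prime 13 := by norm_num
  have pU : PiGrp {13} U := piGrp_of_card_prime p13 c
  have fx : U ⊓ 𝐂 (zpowers b) = ⊥ :=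
    inf_eq_bot_of_prime_of_not_le (by rw [c]; exact p13) fun e => nc (cent_symm e)
  obtain ⟨u1, u2, u3⟩ := h.frob u n (ne_bot_of_prime_card (by rw [c]; exact p13)) fx
  obtain ⟨m1, m2, -⟩ := f.frob h
  have xh : Q ⊔ U ≤ H := sup_le f.le u
  have wv : ⁅V, Q⁆ ⊔ ⁅V, U⁆ ≤ V := sup_le (h.cl f.le) (h.cl u)
  have dX : ♯(Q ⊔ U) ∣ 33280 := by
    refine h.card_dvd_of xh wv (comm_sup_le' le_sup_left le_sup_right
      (norm_of_comm_le ((commutator_mono wv le_rfl).trans le_sup_left))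
      (norm_of_comm_le ((commutator_mono wv le_rfl).trans le_sup_right))) ?_
    have := card_sup_mul_card_inf (Or.inl (norm_of_cent (h.ab.abel.cent (h.cl f.le) (h.cl u))))
    have := card_le (le_inf m2 u2)
    rw [m1, u1] at *
    nlinarith
  have uF : U ≤ 𝐅 (Q ⊔ U) := by
    refine le_trans (le_inf le_sup_right (cent_symm ?_)) (h.sol.mono xh).cent_F_le
    refine (F_nil _).le_of_forall fun r _ _ => cent_symm (cent_of_small p13 pU
      (le_norm_O _ (le_norm_F (norm_of_le le_sup_right))) (small13 ?_))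
    rcases prime_pow_dvd (O_pi {r} _) ((card_dvd ((O_le _ _).trans (F_le _))).trans dX) with e | e | e
    · exact Or.inl e
    · exact Or.inr (Or.inl e)
    · exact Or.inr (Or.inr (Or.inl e))
  have uO : U = 𝐎 {13} (Q ⊔ U) := by
    refine eq_of_card_le (le_O_of_le_F uF pU) ?_
    have cop : ∀ p : ℕ, p.Prime → p ≠ 13 → (♯(𝐎 {13} (Q ⊔ U))).Coprime p := fun p hp ne =>
      (piNat_compl_single_iff_coprime hp).1 ((O_pi _ _).to_compl_single ne)
    have := (((cop 2 Nat.prime_two (by norm_num)).pow_right 9).mul_right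
      (cop 5 (by norm_num) (by norm_num))).dvd_of_dvd_mul_left
      (show _ ∣ 2 ^ 9 * 5 * 13 from (card_dvd (O_le _ _)).trans dX)
    rw [c]; exact Nat.le_of_dvd (by norm_num) this
  have qn : Q ≤ 𝐍 U := by rw [uO]; exact le_norm_O _ (norm_of_le le_sup_left)
  have qc : Q ≤ 𝐂 U := by
    rw [← f.comm h]
    exact (commutator_mono le_sup_left le_sup_right).trans
      ((cyc_of_prime (by rw [c]; exact p13)).der_le_cent (sup_le qn n))
  have mc : ⁅V, Q⁆ ≤ 𝐂 U := by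
    refine f.el.abel.le_of_cent1 f.el.self.not_cyc (norm_comm_right V Q) (h.copV f.le (h.cl f.le))
      fun x hx x1 => cent_symm (cent_of_small p13 pU ?_ (small13 (Or.inr (Or.inr (Or.inr ?_)))))
    · rw [← cent_zpowers]
      exact norm_inf_cent (norm_commutator (u.trans h.nV) (norm_of_cent' qc))
        (norm_of_cent' ((zpowers_le.2 hx).trans qc))
    · have l := card_lt (f.lt h hx x1)
      rcases pow3_cases (h.ab.pi.le (inf_le_left.trans (h.cl f.le)) : PiGrp {3} (⁅V, Q⁆ ⊓ 𝐂₁ x))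
        (card_ne_zero' _) (by omega) with e | e | e | e | e <;> rw [e] at l ⊢ <;> omega
  have := eq_bot_mono (h.fix u) (le_inf u2 (m2.trans mc))
  rw [this, card_bot] at u3
  omega

theorem Fo.odd (f : Fo H b Q) (h : Cb V H b) {r : ℕ} (r2 : r ≠ 2) (t : T ≤ H) (k : PiGrp {r} T)
    (n : zpowers b ≤ 𝐍 T) : T ≤ 𝐂 (zpowers b) := by
  intro x hx
  set U := (zpowers b ⊔ cj x (zpowers b)) ⊓ T
  have nU : zpowers b ≤ 𝐍 U := norm_inf (norm_of_le le_sup_left) n
  have dU : ♯U ∣ 33280 := h.gen (t hx) (inf_le_right.trans t) inf_le_left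
  have c : zpowers b ≤ 𝐂 U := by
    have cop : (♯U).Coprime 2 := (piNat_compl_single_iff_coprime Nat.prime_two).1
      ((k.inf_right (H := zpowers b ⊔ cj x (zpowers b))).to_compl_single (Ne.symm r2))
    have kU : PiGrp {r} U := k.inf_right
    rcases prime_pow_dvd kU dU with e | e | e
    · rw [card_eq_one'.1 ((cop.pow_right 9).eq_one_of_dvd e)]; simp
    · rcases (Nat.dvd_prime (by norm_num)).1 e with e | e
      · rw [card_eq_one'.1 e]; simp
      · have := relIndex_cent_dvd_pred (X := U) (by rw [e]; norm_num) nU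
        have d := relIndex_dvd_card (𝐂 U) (zpowers b)
        rw [h.cardB] at d
        rw [e] at this
        exact relIndex_eq_one.1 (Nat.eq_one_of_dvd_coprimes (by norm_num) this d)
    · rcases (Nat.dvd_prime (by norm_num)).1 e with e | e
      · rw [card_eq_one'.1 e]; simp
      · exact f.no13 h (inf_le_right.trans t) nU e
  have m : ⁅x, b⁆ ∈ U := mem_inf.2 ⟨by
    rw [commutatorElement_def]
    exact mul_mem (mem_sup_right (conj_mem_cj.2 (mem_zpowers b))) (mem_sup_left (inv_mem (mem_zpowers b))),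
    comm_le_left n (commutator_mem_commutator hx (mem_zpowers b))⟩
  have cm : ⁅x, b⁆ * b = b * ⁅x, b⁆ := mem_cent.1 (c (mem_zpowers b)) _ m
  have e3 : PiElt {3} ⁅x, b⁆ := by
    have b3 : PiElt {3} b := piGrp_zpowers.1 h.piB
    rw [commutatorElement_def] at cm ⊢
    refine (b3.conj x).mul b3.inv ?_
    calc x * b * x⁻¹ * b⁻¹ = b⁻¹ * (b * (x * b * x⁻¹ * b⁻¹)) := by group
      _ = _ := by rw [← cm]; group
  have := e3.eq_one (h.pi.elt (t (mem_inf.1 m).2))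
  rw [cent_zpowers]
  exact mem_cent1.2 (commutatorElement_eq_one_iff_mul_comm.1 this)

theorem Fo.comm_pi (f : Fo H b Q) (h : Cb V H b) : PiGrp {2} ⁅H, zpowers b⁆ := by
  obtain ⟨L, l, n⟩ := exists_hall_inv h.bH (h.copB le_rfl) h.sol ({2}ᶜ)
  refine (O_pi {2} H).le (l.comm_le_O h.bH (h.copB le_rfl) h.sol (cent_symm ?_))
  refine le_of_forall_syl fun p hp d => ?_
  obtain ⟨P, s, m⟩ := exists_syl_inv n (h.copB l.le) (Or.inr (h.sol.mono l.le)) p
  exact ⟨P, s, f.odd h (l.pi p hp d) (s.le.trans l.le) s.pi m⟩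

end CF.Cub
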