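import Cfsg.Agent.Cub.A
import Cfsg.Agent.Invol.Four

/-! Irreducibility on `[V,R]`, lines of a four-group, central four-groups. -/

set_option autoImplicit false
set_option linter.unusedSectionVars false
open Subgroup Cfsg CF.BG CF.BG2 CF.Th5
open scoped commutatorElement

namespace CF.Cub

variable {G : Type*} [Group G] [Finite G] {V H K Q U W X T R N L : Subgroup G} {b q : G}

theorem Cb.mono (h : Cb V H b) (k : K ≤ H) (n : zpowers b ≤ 𝐍 K) : Cb V K b :=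
  ⟨h.ab, h.pi.le k, h.sol.mono k, k.trans h.nV, h.bV, n, h.b3,
    eq_bot_mono h.faith (inf_le_inf_right _ k), h.nine⟩

theorem Fo.of_le (f : Fo H b Q) (k : Q ≤ K) : Fo K b Q := ⟨f.el.of_le k, f.nm, f.nc⟩

theorem Cb.irr (h : Cb V R b) (cm : ⁅R, zpowers b⁆ = R) (f : Fo R b Q) (l : N ≤ ⁅V, R⁆)
    (n : R ≤ 𝐍 N) (m : zpowers b ≤ 𝐍 N) : N = ⊥ ∨ N = ⁅V, R⁆ := by
  obtain ⟨m1, m2, -⟩ := f.frob h
  have nv : N ≤ V := l.trans (h.cl le_rfl)
  by_cases c : Q ≤ 𝐂 N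
  · left
    have e : ⁅N, zpowers b⁆ = ⊥ := eq_bot_mono (h.fix f.le) (le_inf
      ((commutator_mono nv le_rfl).trans m2) ((comm_le_left m).trans (cent_symm c)))
    have r : R ≤ 𝐂 N := by
      rw [← cm]
      exact (commutator_mono le_rfl (comm_eq_bot'.1 e)).trans (comm_le_right (norm_cent n))
    exact eq_bot_mono (h.fix le_rfl) (le_inf l (cent_symm r))
  · right
    have k : Cb N Q b := ⟨h.ab.le nv, h.pi.le f.le, h.sol.mono f.le, f.le.trans n, m, f.nm, h.b3, by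
      by_contra e
      exact c (f.irr h inf_le_left (norm_inf_cent f.nm m) e ▸ inf_le_right),
      (card_le (commutator_mono nv le_rfl)).trans h.nine⟩
    have e := eq_of_card_eq (commutator_mono nv le_rfl : ⁅N, Q⁆ ≤ ⁅V, Q⁆)
      (((f.of_le le_rfl).frob k).1.trans m1.symm)
    have d : zpowers b ≤ centMod V N := le_centMod.2 ⟨m, by
      rw [commutator_comm]; exact m2.trans (e ▸ comm_le_left (f.le.trans n))⟩
    have r : R ≤ centMod V N := by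
      rw [← cm]
      exact (commutator_mono le_rfl d).trans (comm_le_right (norm_centMod h.nV n))
    exact le_antisymm l (by rw [commutator_comm]; exact (le_centMod.1 r).2)

theorem Fo.klein (f : Fo H b Q) : IsKleinFour Q :=
  CF.Invol.isKleinFour_iff.2 ⟨f.el.card, fun x hx => by rw [← pow_two]; exact f.el.ab.pow x hx⟩

theorem Fo.cj_mem (f : Fo H b Q) (hq : q ∈ Q) : b * q * b⁻¹ ∈ Q :=
  conj_mem_of_norm (f.nm (mem_zpowers b)) hq

theorem conj_ne_one (q1 : q ≠ 1) : b * q * b⁻¹ ≠ 1 := fun e => q1 (by simpa using e)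

theorem Fo.cj_ne (f : Fo H b Q) (h : Cb V H b) (hq : q ∈ Q) (q1 : q ≠ 1) : q ≠ b * q * b⁻¹ :=
  fun e => q1 (eq_one_of_mem_bot (f.fix h) (mem_inf.2 ⟨hq, by
    rw [cent_zpowers, mem_cent1]; exact mul_inv_eq_iff_eq_mul.1 e.symm |>.symm⟩))

theorem Cb.cube (h : Cb V H b) (x : G) : b * (b * (b * x * b⁻¹) * b⁻¹) * b⁻¹ = x := by
  have := pow_orderOf_eq_one b
  rw [h.b3] at this
  calc _ = b ^ 3 * x * (b ^ 3)⁻¹ := by simp only [pow_succ, pow_zero]; group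
    _ = x := by rw [this]; group

theorem Fo.mem_iff (f : Fo H b Q) (h : Cb V H b) (hq : q ∈ Q) (q1 : q ≠ 1) {x : G} :
    x ∈ Q ↔ x = 1 ∨ x = q ∨ x = b * q * b⁻¹ ∨ x = q * (b * q * b⁻¹) :=
  CF.Invol.klein_mem_iff f.klein hq (f.cj_mem hq) q1 (conj_ne_one q1) (f.cj_ne h hq q1)

theorem Fo.cj2 (f : Fo H b Q) (h : Cb V H b) (hq : q ∈ Q) (q1 : q ≠ 1) :
    b * (b * q * b⁻¹) * b⁻¹ = q * (b * q * b⁻¹) := by
  rcases (f.mem_iff h hq q1).1 (f.cj_mem (f.cj_mem hq)) with e | e | e | e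
  · exact absurd e (conj_ne_one (conj_ne_one q1))
  · have := h.cube q
    rw [e] at this
    exact absurd this.symm (f.cj_ne h hq q1)
  · exact absurd e.symm (f.cj_ne h (f.cj_mem hq) (conj_ne_one q1))
  · exact e

theorem Fo.all (f : Fo H b Q) (h : Cb V H b) (hq : q ∈ Q) (q1 : q ≠ 1) {P : G → Prop} (p : P q)
    (s : ∀ x, P x → P (b * x * b⁻¹)) {x : G} (hx : x ∈ Q) (x1 : x ≠ 1) : P x := by
  rcases (f.mem_iff h hq q1).1 hx with e | e | e | e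
  · exact absurd e x1
  · exact e ▸ p
  · exact e ▸ s _ p
  · rw [e, ← f.cj2 h hq q1]; exact s _ (s _ p)

theorem Fo.cent_eq (f : Fo H b Q) (h : Cb V H b) (hq : q ∈ Q) (q1 : q ≠ 1) :
    𝐂₁ q ⊓ 𝐂₁ (b * q * b⁻¹) ≤ 𝐂 Q := by
  intro x hx
  refine mem_cent.2 fun y hy => ?_
  have e1 := mem_cent1.1 (mem_inf.1 hx).1
  have e2 := mem_cent1.1 (mem_inf.1 hx).2
  rcases (f.mem_iff h hq q1).1 hy with rfl | rfl | rfl | rfl
  · simp
  · exact e1.symm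
  · exact e2.symm
  · rw [mul_assoc, ← e2, ← mul_assoc, ← e1, mul_assoc]

theorem Fo.cj_line (f : Fo H b Q) (h : Cb V H b) (q : G) :
    cj b (⁅V, Q⁆ ⊓ 𝐂₁ q) = ⁅V, Q⁆ ⊓ 𝐂₁ (b * q * b⁻¹) := by
  rw [cj_inf, cj_cent1, cj_of_norm (norm_commutator h.bV f.nm (mem_zpowers b))]

theorem Fo.le_of_lines (f : Fo H b Q) (h : Cb V H b) (l : ∀ x ∈ Q, x ≠ 1 → ⁅V, Q⁆ ⊓ 𝐂₁ x ≤ L) :
    ⁅V, Q⁆ ≤ L :=
  f.el.abel.le_of_cent1 f.el.self.not_cyc (norm_comm_right V Q) (h.copV f.le (h.cl f.le)) l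

theorem Fo.line (f : Fo H b Q) (h : Cb V H b) (hq : q ∈ Q) (q1 : q ≠ 1) :
    ♯(⁅V, Q⁆ ⊓ 𝐂₁ q) = 3 := by
  have m1 := (f.frob h).1
  have lv : ∀ x, ⁅V, Q⁆ ⊓ 𝐂₁ x ≤ V := fun x => inf_le_left.trans (h.cl f.le)
  have i : (⁅V, Q⁆ ⊓ 𝐂₁ q) ⊓ (⁅V, Q⁆ ⊓ 𝐂₁ (b * q * b⁻¹)) = ⊥ :=
    eq_bot_mono (h.fix f.le) (le_inf (inf_le_left.trans inf_le_left)
      ((inf_le_inf inf_le_right inf_le_right).trans (f.cent_eq h hq q1)))
  have c := card_sup_of_inf_bot (Or.inl (norm_of_cent (h.ab.abel.cent (lv _) (lv _)))) i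
  have l := card_le (sup_le inf_le_left inf_le_left :
    (⁅V, Q⁆ ⊓ 𝐂₁ q) ⊔ (⁅V, Q⁆ ⊓ 𝐂₁ (b * q * b⁻¹)) ≤ ⁅V, Q⁆)
  rw [c, ← f.cj_line h, card_cj, m1] at l
  rcases pow3_cases (h.ab.pi.le (lv q)) (card_ne_zero' _) (by nlinarith) with e | e | e | e | e
  · have := f.le_of_lines h (L := ⊥) fun x hx x1 => le_of_eq (f.all h hq q1
      (P := fun x => ⁅V, Q⁆ ⊓ 𝐂₁ x = ⊥) (card_eq_one'.1 e)
      (fun x e => by rw [← f.cj_line h, e, cj_bot]) hx x1)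
    rw [le_bot_iff.1 this, card_bot] at m1
    omega
  · exact e
  all_goals rw [e] at l; omega

theorem idx_three (c : ♯L = 3) (n : K ≤ 𝐍 L) : (𝐂 L).relIndex K ∣ 2 := by
  have := relIndex_cent_dvd_pred (X := L) (by rw [c]; norm_num) n
  rwa [c] at this

theorem mul_mem_of_idx (i : L.relIndex K ∣ 2) {x y : G} (hx : x ∈ K) (hy : y ∈ K) (a : x ∉ L)
    (c : y ∉ L) : x * y ∈ L := by
  rcases (Nat.dvd_prime Nat.prime_two).1 i with e | e
  · exact absurd (relIndex_eq_one.1 e hx) a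
  · exact (mul_mem_iff_of_index_two (H := L.subgroupOf K) e (a := ⟨x, hx⟩) (b := ⟨y, hy⟩)).2
      ⟨fun h => absurd h a, fun h => absurd h c⟩

theorem sq_mem_of_idx (i : L.relIndex K ∣ 2) {x : G} (hx : x ∈ K) : x * x ∈ L := by
  by_cases a : x ∈ L
  · exact mul_mem a a
  · exact mul_mem_of_idx i hx hx a a

theorem Fo.norm_line (f : Fo H b Q) (h : Cb V H b) (k : K ≤ H) (c : K ≤ 𝐂 Q) (hq : q ∈ Q) :
    K ≤ 𝐍 (⁅V, Q⁆ ⊓ 𝐂₁ q) := by
  rw [← cent_zpowers]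
  exact norm_inf_cent (norm_commutator (k.trans h.nV) (norm_of_cent c))
    (norm_of_cent (c.trans (cent_anti (zpowers_le.2 hq))))

theorem Cb.eq_one (h : Cb V H b) (k : K ≤ H) {x : G} (hx : x ∈ K) (c : x ∈ 𝐂 ⁅V, K⁆) : x = 1 :=
  eq_one_of_mem_bot (h.triv ((zpowers_le.2 hx).trans k) ((commutator_mono le_rfl
    (zpowers_le.2 hx)).trans (cent_symm (zpowers_le.2 c)))) (mem_zpowers x)

theorem Fo.central (f : Fo R b Q) (h : Cb V R b) (two : PiGrp {2} R) (cm : ⁅R, zpowers b⁆ = R)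
    (c : R ≤ 𝐂 Q) : R = Q := by
  have m1 := (f.frob h).1
  have e : ⁅V, Q⁆ = ⁅V, R⁆ := (h.irr cm f (commutator_mono le_rfl f.le)
    (norm_commutator h.nV (norm_of_cent c)) (norm_commutator h.bV f.nm)).resolve_left fun e => by
      rw [e, card_bot] at m1; omega
  have i : ∀ x ∈ Q, x ≠ 1 → (𝐂 (⁅V, Q⁆ ⊓ 𝐂₁ x)).relIndex R ∣ 2 := fun x hx x1 =>
    idx_three (f.line h hx x1) (f.norm_line h le_rfl c hx)
  have tr : ∀ r ∈ R, (∀ x ∈ Q, x ≠ 1 → r ∈ 𝐂 (⁅V, Q⁆ ⊓ 𝐂₁ x)) → r = 1 := fun r hr k =>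
    h.eq_one le_rfl hr (e ▸ zpowers_le.1 (cent_symm (f.le_of_lines h fun x hx x1 =>
      cent_symm (zpowers_le.2 (k x hx x1)))))
  have a : Abel R := abel_of_forall fun x hx y hy => CF.Invol.commute_of_forall_mul_self
    (fun r hr => tr _ (mul_mem hr hr) fun x hx x1 => sq_mem_of_idx (i x hx x1) hr) hx hy
  have fx := a.comm_inf_cent h.bH (h.copB le_rfl)
  rw [cm] at fx
  have md := card_modEq_card_cent Nat.prime_three h.piB h.bH
  rw [fx, card_bot] at md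
  obtain ⟨q, hq, q1⟩ := exists_mem_ne_one f.ne_bot
  have hq' := f.cj_mem hq
  have q1' : b * q * b⁻¹ ≠ 1 := conj_ne_one q1
  have z : (𝐂 (⁅V, Q⁆ ⊓ 𝐂₁ q) ⊓ 𝐂 (⁅V, Q⁆ ⊓ 𝐂₁ (b * q * b⁻¹)) ⊓
      𝐂 (⁅V, Q⁆ ⊓ 𝐂₁ (b * (b * q * b⁻¹) * b⁻¹))) ⊓ R = ⊥ := by
    refine eq_bot_of_forall fun r hr => tr r hr.2 fun x hx x1 => ?_
    rcases (f.mem_iff h hq q1).1 hx with e | e | e | e
    · exact absurd e x1
    · exact e ▸ hr.1.1.1
    · exact e ▸ hr.1.1.2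
    · rw [e, ← f.cj2 h hq q1]; exact hr.1.2
  have l := relIndex_of_inf_bot z
  have l1 := Nat.le_of_dvd two_pos (i _ hq q1)
  have l2 := Nat.le_of_dvd two_pos (i _ hq' q1')
  have l3 := Nat.le_of_dvd two_pos (i _ (f.cj_mem hq') (conj_ne_one q1'))
  have l8 : ♯R ≤ 8 := by
    rw [← l]
    refine relIndex_inf_le.trans ((Nat.mul_le_mul (relIndex_inf_le.trans
      (Nat.mul_le_mul l1 l2)) l3))
  have l4 := card_le f.le
  rw [f.el.card] at l4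
  refine (eq_of_card_le f.le ?_).symm
  rw [f.el.card]
  obtain ⟨k, ek⟩ := two.card_pow
  rw [ek] at l8 md ⊢
  have : k ≤ 3 := (Nat.pow_le_pow_iff_right (by norm_num : 1 < 2)).1 l8
  interval_cases k <;> simp_all [Nat.ModEq]

theorem Cb.exFo (h : Cb V H b) (n : zpowers b ≤ 𝐍 X) {a : G} (ha : a ∈ X) (a2 : a * a = 1)
    (ne : a ≠ b * a * b⁻¹) (c : a * (b * a * b⁻¹) = (b * a * b⁻¹) * a) : ∃ Q, Fo X b Q := by
  have cj2 : ∀ {x y : G}, x * y = y * x → (b * x * b⁻¹) * (b * y * b⁻¹) = (b * y * b⁻¹) * (b * x * b⁻¹) :=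
    fun {x y} e => by
      calc _ = b * (x * y) * b⁻¹ := by group
        _ = _ := by rw [e]; group
  have sq : ∀ {x : G}, x * x = 1 → (b * x * b⁻¹) * (b * x * b⁻¹) = 1 := fun {x} e => by
    calc _ = b * (x * x) * b⁻¹ := by group
      _ = _ := by rw [e]; group
  have m : ∀ {x : G}, x ∈ X → b * x * b⁻¹ ∈ X := conj_mem_of_norm (n (mem_zpowers b))
  have cu := h.cube a
  have c2 := cj2 c
  have c3 := cj2 c2
  have s1 := sq a2
  have s2 := sq s1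
  have ha1 := m ha
  have ha2 := m ha1
  rw [cu] at c3
  have e1 : b * (a * (b * a * b⁻¹)) * b⁻¹ = (b * a * b⁻¹) * (b * (b * a * b⁻¹) * b⁻¹) := by group
  have e2 : b * ((b * a * b⁻¹) * (b * (b * a * b⁻¹) * b⁻¹)) * b⁻¹ = (b * (b * a * b⁻¹) * b⁻¹) * a := by
    calc _ = (b * (b * a * b⁻¹) * b⁻¹) * (b * (b * (b * a * b⁻¹) * b⁻¹) * b⁻¹) := by group
      _ = _ := by rw [cu]
  have ne2 : a ≠ b * (b * a * b⁻¹) * b⁻¹ := fun e => ne (by rw [← e] at cu; exact cu.symm)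
  have ne3 : b * a * b⁻¹ ≠ b * (b * a * b⁻¹) * b⁻¹ := fun e => ne (by simpa using e)
  generalize b * (b * a * b⁻¹) * b⁻¹ = a'' at *
  generalize b * a * b⁻¹ = a' at *
  have inv : ∀ {x y : G}, x * x = 1 → y * y = 1 → x * y = y * x → x ≠ y → orderOf (x * y) = 2 :=
    fun {x y} p r s t => orderOf_eq_prime (by
      rw [pow_two, mul_assoc, ← mul_assoc y, ← s, mul_assoc, r, mul_one, p]) fun e => t (by
      rw [eq_inv_of_mul_eq_one_left e, eq_comm, eq_inv_iff_mul_eq_one, r])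
  have o1 := inv a2 s1 c ne
  have o2 := inv s1 s2 c2 ne3
  have pr : a * a' * (a' * a'') = a'' * a := by rw [mul_assoc, ← mul_assoc a', s1, one_mul, c3]
  have cm : Commute (a * a') (a' * a'') := by
    show _ = _
    rw [pr, mul_assoc, ← mul_assoc a'', c3, mul_assoc, ← c2, ← mul_assoc, ← mul_assoc, ← c,
      mul_assoc a, s1, mul_one]
  have nq : a * a' ≠ a' * a'' := fun e => ne2 (by rw [c] at e; exact mul_left_cancel e)
  have k := CF.Invol.isKleinFour_closure o1 o2 cm nq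
  have mi := fun x => CF.Invol.mem_closure_four (x := x) (by rw [← pow_two, ← o1, pow_orderOf_eq_one])
    (by rw [← pow_two, ← o2, pow_orderOf_eq_one]) cm
  refine ⟨closure {a * a', a' * a''}, elem_of_card Nat.prime_two ?_ (.mk' Nat.prime_two
    (CF.Invol.klein_le_centralizer k) fun x hx => by
      rw [pow_two]; exact CF.Invol.klein_mul_self k hx) k.card_four, ?_, fun e => nq ?_⟩
  · rw [closure_le]
    rintro x (rfl | rfl)
    exacts [mul_mem ha ha1, mul_mem ha1 ha2]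
  · refine zpowers_le.2 (mem_norm_of_cj_le (cj_le_iff.2 ((closure_le _).2 ?_)))
    rintro x (rfl | rfl)
    · exact mem_cj_inv.2 ((mi _).2 (Or.inr (Or.inr (Or.inl e1))))
    · exact mem_cj_inv.2 ((mi _).2 (Or.inr (Or.inr (Or.inr (e2.trans pr.symm)))))
  · rw [← e1, ← mem_cent.1 (e (mem_zpowers b)) _ ((mi _).2 (Or.inr (Or.inl rfl)))]; group

end CF.Cub
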