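import Cfsg.Agent.Cub.B
import Cfsg.Agent.Even.Extra

/-! If no four-group is central, there is a four-group in the second centre. -/

set_option autoImplicit false
set_option linter.unusedSectionVars false
open Subgroup Cfsg CF.BG CF.BG2 CF.Th5
open scoped commutatorElement

namespace CF.Cub

variable {G : Type*} [Group G] [Finite G] {V H K Q U W X T R N L : Subgroup G} {b q z : G}

structure Z2 (R : Subgroup G) (b z : G) : Prop where
  ord : orderOf z = 2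
  cen : z ∈ 𝐂 R
  zb : z ∈ 𝐂 (zpowers b)
  cb : R ⊓ 𝐂 R ≤ 𝐂 (zpowers b)
  uniq : ∀ x ∈ R, x ∈ 𝐂 R → x * x = 1 → x ∈ zpowers z

theorem Cb.exZ (h : Cb V R b) (two : PiGrp {2} R) (cm : ⁅R, zpowers b⁆ = R) (f : Fo R b Q)
    (nc : ∀ Q, Fo R b Q → ¬ R ≤ 𝐂 Q) : ∃ z ∈ R, Z2 R b z ∧ ⁅V, R⁆ ⊓ 𝐂₁ z = ⊥ := by
  have a := two.abelem_Om_center
  have l : 𝛀 2 (𝐙 R) ≤ 𝐙 R := Om_le _ _
  have nz : zpowers b ≤ 𝐍 (𝐙 R) := h.bH.trans (norm_center R)
  have n : zpowers b ≤ 𝐍 (𝛀 2 (𝐙 R)) := le_norm_Om _ nz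
  have c : zpowers b ≤ 𝐂 (𝛀 2 (𝐙 R)) := by
    refine zpowers_le.2 (mem_cent.2 fun x hx => ?_)
    by_contra ne
    obtain ⟨Q', f'⟩ := h.exFo n hx (by rw [← pow_two]; exact a.pow x hx)
      (fun e => ne (mul_inv_eq_iff_eq_mul.1 e.symm).symm)
      (a.abel.mul_comm hx (conj_mem_of_norm (n (mem_zpowers b)) hx))
    exact nc Q' (f'.of_le (f'.le.trans (l.trans inf_le_left)))
      (cent_symm (f'.le.trans (l.trans inf_le_right)))
  have cb := cent_symm ((center_abel R).cent_of_Om two.inf_left nz (h.copB inf_le_left) c)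
  have fx : ∀ x ∈ 𝛀 2 (𝐙 R), x ≠ 1 → ⁅V, R⁆ ⊓ 𝐂₁ x = ⊥ := fun x hx x1 => by
    refine (h.irr cm f inf_le_left ?_ ?_).resolve_right fun e => x1 (h.eq_one le_rfl (l hx).1
      (le_cent1_iff.1 (e ▸ inf_le_right)))
    all_goals rw [← cent_zpowers]
    · exact norm_inf_cent (norm_comm_right _ _) (norm_of_cent' (zpowers_le.2 (l hx).2))
    · exact norm_inf_cent (norm_commutator h.bV h.bH) (norm_of_cent' (zpowers_le.2 (cb (l hx))))
  have r1 : R ≠ ⊥ := ne_bot_mono f.ne_bot f.le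
  have cy : Cyc (𝛀 2 (𝐙 R)) := by
    by_contra ncy
    obtain ⟨x, hx, x1, e⟩ := a.abel.exists_cent1_ne_bot ncy (K := ⁅V, R⁆)
      ((l.trans inf_le_left).trans (norm_comm_right _ _)) (h.copV (l.trans inf_le_left) (h.cl le_rfl))
      fun e => r1 (h.triv le_rfl (e ▸ bot_le))
    exact e (fx x hx x1)
  obtain ⟨z, hz, z1⟩ := exists_mem_ne_one (two.inf_left.Om_ne_bot (two.center_ne_bot r1))
  refine ⟨z, (l hz).1, ⟨a.orderOf hz z1, (l hz).2, cb (l hz), cb, fun x hx xc x2 => ?_⟩, fx z hz z1⟩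
  have m : x ∈ 𝛀 2 (𝐙 R) := mem_Om ⟨hx, xc⟩ (by rw [pow_two, x2])
  by_cases x1 : x = 1
  · rw [x1]; exact one_mem _
  · rw [CF.Invol.eq_of_invol_of_isCyclic cy m hz (a.orderOf m x1) (a.orderOf hz z1)]
    exact mem_zpowers z

theorem comm_sq {x r : G} (c : ⁅x, r⁆ * x = x * ⁅x, r⁆) : ⁅x * x, r⁆ = ⁅x, r⁆ * ⁅x, r⁆ := by
  calc ⁅x * x, r⁆ = x * ⁅x, r⁆ * x⁻¹ * ⁅x, r⁆ := by simp only [commutatorElement_def]; group
    _ = _ := by rw [← c]; group

/-- the preimage of the centre of `R/⟨z⟩`. -/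
abbrev Zh (R : Subgroup G) (z : G) : Subgroup G := R ⊓ centMod R (zpowers z)

theorem Z2.mem_Zh (k : Z2 R b z) {x : G} : x ∈ Zh R z ↔ x ∈ R ∧ ∀ r ∈ R, ⁅x, r⁆ ∈ zpowers z :=
  ⟨fun h => ⟨h.1, h.2.2⟩, fun h => ⟨h.1, norm_of_cent' (zpowers_le.2 k.cen) h.1, h.2⟩⟩

theorem Z2.nm (k : Z2 R b z) (n : zpowers b ≤ 𝐍 R) : zpowers b ≤ 𝐍 (Zh R z) :=
  norm_inf n (norm_centMod n (norm_of_cent' (zpowers_le.2 k.zb)))

theorem Z2.nR (k : Z2 R b z) : R ≤ 𝐍 (Zh R z) :=
  norm_inf (le_norm_self R) (norm_centMod (le_norm_self R) (norm_of_cent' (zpowers_le.2 k.cen)))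

theorem Z2.mem (k : Z2 R b z) {x : G} : x ∈ zpowers z ↔ x = 1 ∨ x = z :=
  CF.Even.mem_zpowers_invol k.ord

theorem Z2.zz (k : Z2 R b z) : z * z = 1 := CF.Even.mul_self_of_invol k.ord

theorem Z2.sq (k : Z2 R b z) {x : G} (h : x ∈ zpowers z) : x * x = 1 := by
  rcases k.mem.1 h with rfl | rfl
  exacts [mul_one _, k.zz]

theorem Z2.stepA (k : Z2 R b z) (h : Cb V R b) (two : PiGrp {2} R) (cm : ⁅R, zpowers b⁆ = R)
    (r1 : R ≠ ⊥) : ¬ Zh R z ≤ 𝐂 (zpowers b) := by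
  intro c
  have rc : R ≤ 𝐂 (Zh R z) := by
    conv_lhs => rw [← cm]
    exact (commutator_mono le_rfl (cent_symm c)).trans (comm_le_right (norm_cent k.nR))
  have n : R ≤ 𝐍 (𝐙 R) := (center_normal R).norm
  have na : qt (𝐙 R) R ≠ ⊥ := fun e => by
    have a : Abel R := ((qt_eq_bot n).1 e).trans inf_le_right
    have := a.comm_inf_cent h.bH (h.copB le_rfl)
    rw [cm] at this
    exact r1 (eq_bot_mono this (le_inf le_rfl ((le_inf le_rfl a).trans k.cb)))
  obtain ⟨X, e⟩ := (two.qt (𝐙 R)).exists_elem_center (NormalIn.refl _) na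
  obtain ⟨y, y1, hy, -⟩ := e.exists_gen
  obtain ⟨x, hx, xn, rfl⟩ := mem_qt.1 (e.le hy).1
  have x2 : x * x ∈ 𝐙 R := by
    rw [← qe_eq_one (mul_mem xn xn), qe_mul xn xn, ← pow_two]; exact e.ab.pow _ hy
  refine y1 ((qe_eq_one xn).2 ⟨hx, cent_symm rc (k.mem_Zh.2 ⟨hx, fun r hr => ?_⟩)⟩)
  have m : ⁅x, r⁆ ∈ 𝐙 R := by
    rw [← qe_eq_one (n (der_le R (commutator_mem_commutator hx hr))), qe_comm xn (n hr),
      commutatorElement_eq_one_iff_mul_comm]
    exact (mem_cent.1 (e.le hy).2.2 _ (qe_mem_qt hr (n hr))).symm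
  refine k.uniq _ m.1 m.2 ?_
  rw [← comm_sq (mem_cent.1 m.2 _ hx).symm, commutatorElement_eq_one_iff_mul_comm]
  exact (mem_cent.1 x2.2 _ hr).symm

theorem Z2.fix (k : Z2 R b z) (h : Cb V R b) {y : G} (hy : y ∈ ⁅Zh R z, zpowers b⁆)
    (c : ⁅y, b⁆ ∈ zpowers z) : y ∈ zpowers z := by
  have n := k.nm h.bH
  have cop := h.copB (inf_le_left : Zh R z ≤ R)
  have hy' := comm_le_left n hy
  have yc : y ∈ 𝐂 (zpowers b) := by
    rw [cent_zpowers, mem_cent1]
    rcases k.mem.1 c with e | e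
    · exact commutatorElement_eq_one_iff_mul_comm.1 e
    · have zb : b * z * b⁻¹ = z := by rw [mem_cent.1 k.zb b (mem_zpowers b)]; group
      have zy : y * z = z * y := mem_cent.1 k.cen y hy'.1
      have e1 : b * y * b⁻¹ = z * y := by
        rw [← CF.Even.inv_of_invol k.ord, ← e, commutatorElement_def]; group
      have e2 : b * (z * y) * b⁻¹ = y := by
        calc _ = (b * z * b⁻¹) * (b * y * b⁻¹) := by group
          _ = y := by rw [zb, e1, ← mul_assoc, k.zz, one_mul]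
      have := h.cube y
      rw [e1, e2] at this
      exact (mul_inv_eq_iff_eq_mul.1 this).symm
  refine (commutator_le.2 fun u hu v hv => hu.2.2 v hv.1 : ⁅Zh R z, Zh R z⁆ ≤ zpowers z)
    (CF.Coprime.inf_centralizer_inf_commutator_le _ _ n cop ⟨⟨hy', yc⟩, hy⟩)

theorem Z2.exFo (k : Z2 R b z) (h : Cb V R b) (two : PiGrp {2} R) (cm : ⁅R, zpowers b⁆ = R)
    (f : Fo R b Q) : ∃ Q, Fo (Zh R z) b Q := by
  have n := k.nm h.bH
  set Y := ⁅Zh R z, zpowers b⁆
  have yl : Y ≤ Zh R z := comm_le_left n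
  have nY : zpowers b ≤ 𝐍 Y := norm_comm_right _ _
  have cj : ∀ {x}, x ∈ Y → b * x * b⁻¹ ∈ Y := conj_mem_of_norm (nY (mem_zpowers b))
  have zc : ∀ {w x}, w ∈ zpowers z → x ∈ R → x * w = w * x := fun hw hx =>
    mem_cent.1 (zpowers_le.2 k.cen hw) _ hx
  have cz : ∀ {x r}, x ∈ Y → r ∈ R → ⁅x, r⁆ ∈ zpowers z := fun hx hr => (yl hx).2.2 _ hr
  have nz : ¬ Y ≤ zpowers z := fun e => k.stepA h two cm (ne_bot_mono f.ne_bot f.le) (cent_symm
    (cent_of_comm_le_cent n (h.copB inf_le_left) (e.trans (zpowers_le.2 k.zb))))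
  have sq : ∀ {x}, x ∈ Y → x * x ∈ zpowers z := fun {x} hx => by
    refine k.fix h (mul_mem hx hx) ?_
    have : x * x ∈ 𝐂 R := mem_cent.2 fun r hr => by
      rw [eq_comm, ← commutatorElement_eq_one_iff_mul_comm, comm_sq (zc (cz hx hr) (yl hx).1).symm]
      exact k.sq (cz hx hr)
    rw [commutatorElement_eq_one_iff_mul_comm.2
      (mem_cent.1 (k.cb ⟨(yl (mul_mem hx hx)).1, this⟩) b (mem_zpowers b)).symm]
    exact one_mem _
  have ne : ∀ {a}, a ∈ Y → a ∉ zpowers z → a * (b * a * b⁻¹)⁻¹ ∉ zpowers z := fun {a} ha na e =>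
    na (k.fix h ha (by rw [commutatorElement_def]; convert e using 1; group))
  by_cases c : ∃ a ∈ Y, a ∉ zpowers z ∧ a * a = 1
  · obtain ⟨a, ha, na, a2⟩ := c
    have sq' : ∀ {x : G}, x * x = 1 → (b * x * b⁻¹) * (b * x * b⁻¹) = 1 := fun {x} e => by
      calc _ = b * (x * x) * b⁻¹ := by group
        _ = _ := by rw [e]; group
    refine h.exFo n (yl ha) a2 (fun e => ne ha na (by rw [← e, mul_inv_cancel]; exact one_mem _)) ?_
    have w : a * (b * a * b⁻¹) * (b * (b * a * b⁻¹) * b⁻¹) ∈ zpowers z := by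
      refine k.fix h (mul_mem (mul_mem ha (cj ha)) (cj (cj ha))) ?_
      have := cz ha (yl (mul_mem (cj ha) (cj (cj ha)))).1
      convert this using 1
      calc _ = a * (b * a * b⁻¹) * (b * (b * a * b⁻¹) * b⁻¹) *
          (b * (b * (b * a * b⁻¹) * b⁻¹) * b⁻¹)⁻¹ * ((b * a * b⁻¹) * (b * (b * a * b⁻¹) * b⁻¹))⁻¹ := by
            simp only [commutatorElement_def]; group
        _ = _ := by rw [h.cube, commutatorElement_def]; group
    have s1 := sq' a2
    have s2 := sq' s1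
    have w2 := k.sq w
    have wc := zc w (yl (cj (cj ha))).1
    generalize b * (b * a * b⁻¹) * b⁻¹ = a'' at *
    generalize b * a * b⁻¹ = a' at *
    have e : a * a' = (a * a' * a'') * a'' := by rw [mul_assoc, s2, mul_one]
    have : a * a' * (a * a') = 1 := by
      generalize a * a' * a'' = w' at *
      rw [e, mul_assoc, ← mul_assoc a'', wc, mul_assoc, s2, mul_one, w2]
    calc a * a' = (a * a')⁻¹ := eq_inv_of_mul_eq_one_left this
      _ = a' * a := by rw [mul_inv_rev, ← eq_inv_of_mul_eq_one_left a2, ← eq_inv_of_mul_eq_one_left s1]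
  exfalso
  have sz : ∀ {x}, x ∈ Y → x ∉ zpowers z → x * x = z := fun hx nx =>
    (k.mem.1 (sq hx)).resolve_left fun e => c ⟨_, hx, nx, e⟩
  have ncm : ∀ {x y}, x ∈ Y → y ∈ Y → x ∉ zpowers z → y ∉ zpowers z → x * y = y * x →
      x * y ∈ zpowers z := fun {x y} hx hy nx ny e => by
    by_contra nxy
    have := sz (mul_mem hx hy) nxy
    rw [mul_assoc, ← mul_assoc y, ← e, mul_assoc, sz hy ny, ← mul_assoc, sz hx nx, k.zz] at this
    have o := k.ord
    rw [← this, orderOf_one] at o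
    omega
  obtain ⟨a, ha, na⟩ := SetLike.not_le_iff_exists.1 nz
  have ha' := cj ha
  have na' : b * a * b⁻¹ ∉ zpowers z := fun e => na (by
    have := conj_mem_of_norm' (norm_of_cent' (zpowers_le.2 k.zb) (mem_zpowers b)) e
    simpa [mul_assoc] using this)
  have naa := ne ha na
  generalize b * a * b⁻¹ = a' at *
  have aa : ⁅a, a'⁆ = z := (k.mem.1 (cz ha (yl ha').1)).resolve_left fun e => naa (by
    have := mul_mem (ncm ha ha' na na' (commutatorElement_eq_one_iff_mul_comm.1 e)) (inv_mem (sq ha'))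
    convert this using 1; group)
  have aR := (yl ha).1
  have aR' := (yl ha').1
  set C := R ⊓ (𝐂₁ a ⊓ 𝐂₁ a')
  set Y1 := zpowers a ⊔ zpowers a'
  have y1 : Y1 ≤ Y := sup_le (zpowers_le.2 ha) (zpowers_le.2 ha')
  have m1 : a ∈ Y1 := mem_sup_left (mem_zpowers a)
  have m2 : a' ∈ Y1 := mem_sup_right (mem_zpowers a')
  have z1 : zpowers z ≤ Y1 := zpowers_le.2 (sz ha na ▸ mul_mem m1 m1)
  have cY : C ≤ 𝐂 Y1 := le_cent_sup (by rw [cent_zpowers]; exact inf_le_right.trans inf_le_left)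
    (by rw [cent_zpowers]; exact inf_le_right.trans inf_le_right)
  have hz : ∀ {x u r : G}, u ∈ R → ⁅x, u⁆ = z → ⁅x, r⁆ = z → u * r * x = x * (u * r) :=
    fun {x u r} hu e1 e2 => by
      have h1 : x * u = z * u * x := by rw [← e1, commutatorElement_def]; group
      have h2 : x * r = z * r * x := by rw [← e2, commutatorElement_def]; group
      have h3 : u * z = z * u := zc (mem_zpowers z) hu
      rw [← mul_assoc, h1, mul_assoc (z * u), h2, mul_assoc z, ← mul_assoc u, ← mul_assoc u, h3]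
      simp only [← mul_assoc, k.zz, one_mul]
  have aa' : ⁅a', a⁆ = z := by rw [← commutatorElement_inv, aa, CF.Even.inv_of_invol k.ord]
  have st2 : ∀ r ∈ R, r * a = a * r → r ∈ Y1 ⊔ C := fun r hr e => by
    rcases k.mem.1 (cz ha' hr) with e' | e'
    · exact mem_sup_right ⟨hr, mem_cent1.2 e,
        mem_cent1.2 (commutatorElement_eq_one_iff_mul_comm.1 e').symm⟩
    · have : a * r ∈ C := ⟨mul_mem aR hr, mem_cent1.2 (by rw [mul_assoc, e]), mem_cent1.2 (hz aR aa' e')⟩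
      simpa using mul_mem (mem_sup_left (inv_mem m1) : a⁻¹ ∈ Y1 ⊔ C) (mem_sup_right this)
  have rl : R ≤ Y1 ⊔ C := fun r hr => by
    rcases k.mem.1 (cz ha hr) with e' | e'
    · exact st2 r hr (commutatorElement_eq_one_iff_mul_comm.1 e').symm
    · simpa using mul_mem (mem_sup_left (inv_mem m2) : a'⁻¹ ∈ Y1 ⊔ C)
        (st2 _ (mul_mem aR' hr) (hz aR' aa e'))
  have yc : Y ⊓ C ≤ zpowers z := fun y hy => by
    by_contra ny
    have e1 := ncm ha hy.1 na ny (mem_cent1.1 hy.2.2.1).symm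
    have e2 := ncm ha' hy.1 na' ny (mem_cent1.1 hy.2.2.2).symm
    exact naa (by simpa [mul_assoc] using mul_mem e1 (inv_mem e2))
  have yR : Y ≤ R := yl.trans inf_le_left
  have yy : Y = Y1 := by
    refine le_antisymm ((le_inf le_rfl (yR.trans rl)).trans ?_) y1
    rw [inf_sup_left y1 (Or.inr (norm_of_cent cY))]
    exact sup_le le_rfl (yc.trans z1)
  have cc : C = R ⊓ 𝐂 Y := by
    refine le_antisymm (le_inf inf_le_left (yy ▸ cY)) (inf_le_inf_left _ (le_inf ?_ ?_))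
    exacts [cent_le_cent1 ha, cent_le_cent1 ha']
  have nC : zpowers b ≤ 𝐍 C := by rw [cc]; exact norm_inf_cent h.bH nY
  have cR : C ≤ R := inf_le_left
  set R2 := ⁅C, zpowers b⁆
  have r2 : R2 ≤ C := comm_le_left nC
  have cY' : C ≤ 𝐂 Y := yy ▸ cY
  have rl2 : R ≤ Y ⊔ R2 := by
    conv_lhs => rw [← cm]
    refine (commutator_mono (yy ▸ rl) le_rfl).trans (comm_sup_le ((comm_le_left nY).trans le_sup_left)
      le_sup_right (norm_of_le le_sup_left) (norm_sup (norm_of_cent cY') (norm_comm_left _ _)))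
  by_cases r1 : R2 = ⊥
  · rw [r1, sup_bot_eq] at rl2
    obtain ⟨q, hq, q1, qz⟩ := CF.Invol.klein_exists_ne f.klein z
    have := sz (rl2 (f.le hq)) fun e => (k.mem.1 e).elim q1 qz
    rw [CF.Invol.klein_mul_self f.klein hq] at this
    have o := k.ord
    rw [← this, orderOf_one] at o
    omega
  have cen : ∀ x ∈ R2, x ∈ 𝐂 R2 → x ∈ 𝐂 R := fun x hx e =>
    cent_anti rl2 (by rw [cent_sup]; exact ⟨cY' (r2 hx), e⟩)
  have k2 : Z2 R2 b z := ⟨k.ord, cent_anti (r2.trans cR) k.cen, k.zb,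
    fun x hx => k.cb ⟨cR (r2 hx.1), cen x hx.1 hx.2⟩,
    fun x hx e => k.uniq x (cR (r2 hx)) (cen x hx e)⟩
  have h2 := h.mono (r2.trans cR) (norm_comm_right _ _)
  refine k2.stepA h2 (two.le (r2.trans cR)) (comm_comm_eq nC (h.copB cR) (Or.inr (h.sol.mono cR))) r1
    (cent_symm (cent_of_comm_le_cent (k2.nm h2.bH) (h2.copB inf_le_left) ?_))
  have l : Zh R2 z ≤ Zh R z := by
    have nz' : R ≤ 𝐍 (zpowers z) := norm_of_cent' (zpowers_le.2 k.cen)
    have lR : Zh R2 z ≤ R := inf_le_left.trans (r2.trans cR)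
    refine le_inf lR (le_centMod.2 ⟨lR.trans nz', (commutator_mono le_rfl rl2).trans (comm_sup_le' ?_
      (le_centMod.1 inf_le_right).2 (yR.trans nz') ((r2.trans cR).trans nz'))⟩)
    rw [comm_eq_bot.2 (inf_le_left.trans (r2.trans cY'))]; exact bot_le
  exact ((le_inf (commutator_mono l le_rfl) ((comm_le_left (k2.nm h2.bH)).trans
    (inf_le_left.trans r2))).trans yc).trans (zpowers_le.2 k.zb)

end CF.Cub
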