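import Cfsg.Agent.Cub.C

/-! The structure of `R = [R,b]`: a four-group or extraspecial of order `32`. -/

set_option autoImplicit false
set_option linter.unusedSectionVars false
open Subgroup Cfsg CF.BG CF.BG2 CF.Th5
open scoped commutatorElement

namespace CF.Cub

variable {G : Type*} [Group G] [Finite G] {V H K Q U W X T R N L : Subgroup G} {b q z r c : G}

theorem der_le_of_sq (h : ∀ r ∈ R, r * r ∈ L) : ⁅R, R⁆ ≤ L :=
  commutator_le.2 fun x hx y hy => by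
    have := mul_mem (mul_mem (h x hx) (h _ (mul_mem (inv_mem hx) hy))) (inv_mem (h y hy))
    convert this using 1
    rw [commutatorElement_def]; group

structure St (V R Q : Subgroup G) (b z : G) : Prop where
  h : Cb V R b
  two : PiGrp {2} R
  cm : ⁅R, zpowers b⁆ = R
  k : Z2 R b z
  zR : z ∈ R
  inv : ⁅V, R⁆ ⊓ 𝐂₁ z = ⊥
  f : Fo R b Q
  zh : Q ≤ Zh R z
  nc : ¬ R ≤ 𝐂 Q

namespace St

theorem Azh (s : St V R Q b z) : Q ⊔ zpowers z ≤ Zh R z :=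
  sup_le s.zh (zpowers_le.2 (s.k.mem_Zh.2 ⟨s.zR, fun r hr => by
    rw [commutatorElement_eq_one_iff_mul_comm.2 (mem_cent.1 s.k.cen r hr).symm]; exact one_mem _⟩))

theorem cz (s : St V R Q b z) {a : G} (ha : a ∈ Q ⊔ zpowers z) (hr : r ∈ R) : ⁅r, a⁆ ∈ zpowers z := by
  rw [← commutatorElement_inv]; exact inv_mem ((s.Azh ha).2.2 r hr)

theorem nK (s : St V R Q b z) : R ≤ 𝐍 (R ⊓ 𝐂 Q) := by
  have : R ⊓ 𝐂 Q = R ⊓ 𝐂 (Q ⊔ zpowers z) := le_antisymm (le_inf inf_le_left (le_cent_sup inf_le_right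
    (inf_le_left.trans (cent_symm (zpowers_le.2 s.k.cen))))) (inf_le_inf_left _ (cent_anti le_sup_left))
  rw [this]
  exact norm_inf_cent (le_norm_self R) (norm_of_comm_le' ((commutator_le.2 fun _ hr _ ha =>
    s.cz ha hr).trans le_sup_right))

theorem MF (s : St V R Q b z) : ⁅V, Q⁆ ≤ ⁅V, R⁆ := commutator_mono le_rfl s.f.le

theorem le_cj (s : St V R Q b z) (hr : r ∈ R) (nr : r ∉ 𝐂 Q) : ⁅V, R⁆ ≤ ⁅V, Q⁆ ⊔ cj r ⁅V, Q⁆ := by
  have fv := s.h.cl (le_refl R)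
  rw [← comm_sup_inf_cent (s.f.le.trans (norm_comm_right V R)) (s.h.copV s.f.le fv)
    (Or.inl s.f.el.abel.sol)]
  refine sup_le_sup (commutator_mono fv le_rfl) (le_cj_iff.2 ?_)
  obtain ⟨q, hq, e⟩ : ∃ q ∈ Q, ⁅r⁻¹, q⁆ = z := by
    by_contra c
    refine nr (by simpa using inv_mem (mem_cent.2 fun q hq => (commutatorElement_eq_one_iff_mul_comm.1
      ((s.k.mem.1 (s.cz (mem_sup_left hq) (inv_mem hr))).resolve_right fun e => c ⟨q, hq, e⟩)).symm))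
  have e' : r⁻¹ * q * r⁻¹⁻¹ = z * q := by rw [← e, commutatorElement_def]; group
  have zq : q * z = z * q := mem_cent.1 s.k.cen q (s.f.le hq)
  have l : cj r⁻¹ (⁅V, R⁆ ⊓ 𝐂 Q) ≤ ⁅V, R⁆ ⊓ 𝐂₁ (z * q) := by
    rw [← e', ← cj_cent1, cj_inf, cj_of_norm (norm_comm_right V R (inv_mem hr))]
    exact inf_le_inf_left _ (cj_mono _ (cent_le_cent1 hq))
  refine l.trans ?_
  have qz : zpowers q ≤ Q := zpowers_le.2 hq
  have n : zpowers q ≤ 𝐍 (⁅V, R⁆ ⊓ 𝐂₁ (z * q)) := by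
    rw [← cent_zpowers]
    exact norm_inf_cent ((qz.trans s.f.le).trans (norm_comm_right V R)) (norm_of_cent (zpowers_le.2 (by
      rw [cent_zpowers, mem_cent1, ← mul_assoc, zq])))
  rw [← comm_sup_inf_cent n (s.h.copV (qz.trans s.f.le) (inf_le_left.trans fv))
    (Or.inl (abel_zpowers q).sol)]
  refine sup_le (commutator_mono (inf_le_left.trans fv) qz) (le_trans ?_ (s.inv.le.trans bot_le))
  rw [cent_zpowers]
  intro x hx
  refine ⟨hx.1.1, mem_cent1.2 (mul_right_cancel (b := q) ?_)⟩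
  rw [mul_assoc, mem_cent1.1 hx.1.2, mul_assoc, mul_assoc, mem_cent1.1 hx.2]

theorem eq_one (s : St V R Q b z) (hr : r ∈ R) (nr : r ∉ 𝐂 Q) (hc : c ∈ R) (c1 : c ∈ 𝐂 ⁅V, Q⁆)
    (c2 : c ∈ 𝐂 (cj r ⁅V, Q⁆)) : c = 1 :=
  s.h.eq_one le_rfl hc (cent_anti (s.le_cj hr nr) (by rw [cent_sup]; exact ⟨c1, c2⟩))

theorem lemX (s : St V R Q b z) (hr : r ∈ R) (nr : r ∉ 𝐂 Q) (hc : c ∈ R) (c1 : c ∈ 𝐂 ⁅V, Q⁆)
    (e : ⁅r, c⁆ ∈ zpowers z) : c = 1 := by
  have c2 : r * c * r⁻¹ ∈ 𝐂 (cj r ⁅V, Q⁆) := by rw [← cj_cent]; exact conj_mem_cj.2 c1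
  rcases s.k.mem.1 e with e | e
  · rw [commutatorElement_eq_one_iff_mul_comm.1 e, mul_inv_cancel_right] at c2
    exact s.eq_one hr nr hc c1 c2
  exfalso
  have i := CF.Pgp.relIndex_cent1_le (Q := Q) (x := r) (Z := zpowers z) fun q hq => (s.zh hq).2.2 r hr
  have m := card_inf_mul_relIndex (𝐂₁ r) Q
  rw [Nat.card_zpowers, s.k.ord] at i
  rw [s.f.el.card] at m
  obtain ⟨q, hq, q1⟩ := exists_mem_ne_one (H := 𝐂₁ r ⊓ Q) (one_lt_card.1 (by nlinarith))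
  have qz : zpowers q ≤ Q := zpowers_le.2 hq.2
  have l : ⁅V, zpowers q⁆ ≤ ⁅V, Q⁆ := commutator_mono le_rfl qz
  have l' : ⁅V, zpowers q⁆ ≤ cj r ⁅V, Q⁆ := by
    rw [← cj_of_norm (norm_commutator (zpowers_le.2 (s.h.nV hr)) (norm_of_cent' (zpowers_le.2 (by
      rw [cent_zpowers]; exact hq.1))) (mem_zpowers r))]
    exact cj_mono _ l
  have zc : z ∈ 𝐂 ⁅V, zpowers q⁆ := by
    rw [← e, commutatorElement_def]
    exact mul_mem (cent_anti l' c2) (inv_mem (cent_anti l c1))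
  have := eq_bot_mono s.inv (le_inf (l.trans s.MF) (le_cent1_iff.2 zc))
  exact q1 (eq_one_of_mem_bot (s.h.triv (qz.trans s.f.le) (this ▸ bot_le)) (mem_zpowers q))

theorem sqK (s : St V R Q b z) (hc : c ∈ R ⊓ 𝐂 Q) : c * c = 1 := by
  have a : ∀ c ∈ R ⊓ 𝐂 Q, c * c ∈ 𝐂 ⁅V, Q⁆ := fun c hc =>
    zpowers_le.1 (cent_symm (s.f.le_of_lines s.h fun x hx x1 => cent_symm (zpowers_le.2 (sq_mem_of_idx
      (idx_three (s.f.line s.h hx x1) (s.f.norm_line s.h inf_le_left inf_le_right hx)) hc))))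
  obtain ⟨r, hr, nr⟩ := SetLike.not_le_iff_exists.1 s.nc
  refine s.eq_one hr nr (mul_mem hc.1 hc.1) (a c hc) ?_
  rw [← cj_cent, mem_cj]
  convert a _ (conj_mem_of_norm' (s.nK hr) hc) using 1
  group

theorem lemY (s : St V R Q b z) (hc : c ∈ R ⊓ 𝐂 Q) (cb : c ∈ 𝐂 (zpowers b)) :
    ∃ w ∈ zpowers z, c * w ∈ 𝐂 ⁅V, Q⁆ := by
  obtain ⟨q, hq, q1⟩ := exists_mem_ne_one s.f.ne_bot
  have ex : ∃ w ∈ zpowers z, c * w ∈ 𝐂 (⁅V, Q⁆ ⊓ 𝐂₁ q) := by
    by_cases e : c ∈ 𝐂 (⁅V, Q⁆ ⊓ 𝐂₁ q)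
    · exact ⟨1, one_mem _, by rwa [mul_one]⟩
    refine ⟨z, mem_zpowers z, mul_mem_of_idx (idx_three (s.f.line s.h hq q1) (s.f.norm_line s.h
      inf_le_left inf_le_right hq)) hc ⟨s.zR, cent_anti s.f.le s.k.cen⟩ e fun e' => ?_⟩
    have := s.f.line s.h hq q1
    rw [eq_bot_mono s.inv (le_inf (inf_le_left.trans s.MF) (le_cent1_iff.2 e')), card_bot] at this
    omega
  obtain ⟨w, hw, e⟩ := ex
  refine ⟨w, hw, zpowers_le.1 (cent_symm (s.f.le_of_lines s.h fun x hx x1 => cent_symm (zpowers_le.2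
    (s.f.all s.h hq q1 (P := fun x => c * w ∈ 𝐂 (⁅V, Q⁆ ⊓ 𝐂₁ x)) e (fun x e => ?_) hx x1))))⟩
  rw [← s.f.cj_line s.h, ← cj_cent, mem_cj, mul_assoc,
    ← mem_cent.1 (mul_mem cb (zpowers_le.2 s.k.zb hw)) b (mem_zpowers b), inv_mul_cancel_left]
  exact e

theorem K_le (s : St V R Q b z) : R ⊓ 𝐂 Q ≤ Q ⊔ (R ⊓ 𝐂 Q ⊓ 𝐂 (zpowers b)) := by
  have n : zpowers b ≤ 𝐍 (R ⊓ 𝐂 Q) := norm_inf_cent s.h.bH s.f.nm
  have cop := s.h.copB (inf_le_left : R ⊓ 𝐂 Q ≤ R)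
  have so := Or.inr (a := Sol (zpowers b)) (s.h.sol.mono (inf_le_left : R ⊓ 𝐂 Q ≤ R))
  have l := comm_le_left n
  have e := (s.f.of_le (K := ⁅R ⊓ 𝐂 Q, zpowers b⁆) (by
    conv_lhs => rw [← s.f.comm s.h]
    exact commutator_mono (le_inf s.f.le s.f.el.abel) le_rfl)).central
    (s.h.mono (l.trans inf_le_left) (norm_comm_right _ _)) (s.two.le (l.trans inf_le_left))
    (comm_comm_eq n cop so) (l.trans inf_le_right)
  conv_lhs => rw [← comm_sup_inf_cent n cop so, e]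

theorem sq (s : St V R Q b z) (hr : r ∈ R) : r * r ∈ Q ⊔ zpowers z := by
  by_cases nr : r ∈ 𝐂 Q
  · rw [s.sqK ⟨hr, nr⟩]; exact one_mem _
  have m : r * r ∈ R ⊓ 𝐂 Q := ⟨mul_mem hr hr, mem_cent.2 fun q hq => by
    have := s.cz (mem_sup_left hq) hr
    rw [eq_comm, ← commutatorElement_eq_one_iff_mul_comm,
      comm_sq (mem_cent.1 (zpowers_le.2 s.k.cen this) r hr).symm]
    exact s.k.sq this⟩
  obtain ⟨q, hq, c, hc, e⟩ := (mem_sup_norm' (norm_of_cent (inf_le_left.trans inf_le_right))).1 (s.K_le m)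
  obtain ⟨w, hw, e'⟩ := s.lemY hc.1 hc.2
  have wR : w ∈ R := zpowers_le.2 s.zR hw
  have := s.lemX hr nr (mul_mem hc.1.1 wR) e' (by
    have wr : r * w = w * r := mem_cent.1 (zpowers_le.2 s.k.cen hw) r hr
    convert s.cz (mem_sup_left (inv_mem hq)) hr using 1
    rw [← inv_mul_eq_iff_eq_mul.2 e.symm]
    calc _ = r * q⁻¹ * r * (r * w) * r⁻¹ * w⁻¹ * r⁻¹ * r⁻¹ * q := by rw [commutatorElement_def]; group
      _ = r * q⁻¹ * r * (w * r) * r⁻¹ * w⁻¹ * r⁻¹ * r⁻¹ * q := by rw [wr]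
      _ = _ := by rw [commutatorElement_def]; group)
  rw [← e, eq_inv_of_mul_eq_one_left this]
  exact mul_mem (mem_sup_left hq) (mem_sup_right (inv_mem hw))

theorem der (s : St V R Q b z) : ⁅R, R⁆ ≤ Q ⊔ zpowers z := der_le_of_sq fun _ => s.sq

theorem K_eq (s : St V R Q b z) : R ⊓ 𝐂 Q = Q ⊔ zpowers z :=
  le_antisymm (s.K_le.trans (sup_le le_sup_left ((inf_le_inf_right _ inf_le_left).trans
    ((CF.Coprime.inf_centralizer_le_commutator _ _ s.h.bH (s.h.copB le_rfl) s.cm).trans s.der))))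
    (sup_le (le_inf s.f.le s.f.el.abel) (zpowers_le.2 ⟨s.zR, cent_anti s.f.le s.k.cen⟩))

theorem elZ (s : St V R Q b z) : Elem 2 1 (zpowers z) R := elem_zpowers Nat.prime_two s.zR s.k.ord

theorem elA (s : St V R Q b z) : Elem 2 3 (Q ⊔ zpowers z) R :=
  s.f.el.sup_one s.elZ (zpowers_le.2 (cent_anti s.f.le s.k.cen)) fun e => s.elZ.ne_bot
    (eq_bot_mono (s.f.fix s.h) (le_inf e (zpowers_le.2 s.k.zb)))

theorem card (s : St V R Q b z) : ♯R = 32 := by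
  obtain ⟨q, hq, q1⟩ := exists_mem_ne_one s.f.ne_bot
  have i : ∀ q ∈ Q, (𝐂₁ q).relIndex R ≤ 2 := fun q hq => by
    have := CF.Pgp.relIndex_cent1_le (Q := R) (x := q) (Z := zpowers z) fun r hr =>
      s.cz (mem_sup_left hq) hr
    rwa [s.elZ.card_one] at this
  have l : (𝐂 Q).relIndex R ≤ 4 := by
    refine (relIndex_le_of_le_left (s.f.cent_eq s.h hq q1) (relIndex_ne_zero' _ _)).trans ?_
    exact relIndex_inf_le.trans (Nat.mul_le_mul (i _ hq) (i _ (s.f.cj_mem hq)))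
  have m := card_inf_mul_relIndex (𝐂 Q) R
  rw [inf_comm, s.K_eq, s.elA.card] at m
  obtain ⟨k, ek⟩ := (s.two.relIndex (𝐂 Q)).exists_pow (relIndex_ne_zero' _ _)
  have : k ≤ 2 := (Nat.pow_le_pow_iff_right (by norm_num : 1 < 2)).1 (ek ▸ l)
  interval_cases k
  · exact absurd (relIndex_eq_one.1 ek) s.nc
  · refine absurd ?_ s.nc
    have := comm_le_of_two (A := zpowers b) (U := R ⊓ 𝐂 Q) (by rw [inf_relIndex_left]; exact ek) s.nK
      (norm_inf_cent s.h.bH s.f.nm) s.h.bH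
    rw [commutator_comm, s.cm] at this
    exact this.trans inf_le_right
  · rw [← m, ek]; norm_num

theorem center (s : St V R Q b z) : R ⊓ 𝐂 R = zpowers z := by
  refine le_antisymm ((le_inf ((inf_le_inf_left _ (cent_anti s.f.le)).trans s.K_eq.le) s.k.cb).trans ?_)
    (zpowers_le.2 ⟨s.zR, s.k.cen⟩)
  rw [sup_inf_right (zpowers_le.2 s.k.zb) (Or.inr (norm_of_cent (zpowers_le.2
    (cent_anti s.f.le s.k.cen)))), s.f.fix s.h, bot_sup_eq]

theorem der' (s : St V R Q b z) : ⁅R, R⁆ ≤ zpowers z := by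
  set A := Q ⊔ zpowers z
  have c8 : ♯A = 8 := s.elA.card
  have aR : A ≤ R := s.elA.le
  obtain ⟨r, hr, nr⟩ := SetLike.not_le_iff_exists.1 (fun e : R ≤ A => by
    have := card_le e; rw [c8, s.card] at this; omega)
  have c16 := CF.Invol.card_sup_zpowers (norm_of_der_le aR s.der hr) (s.sq hr) nr
  have xR : A ⊔ zpowers r ≤ R := sup_le aR (zpowers_le.2 hr)
  obtain ⟨t, ht, nt⟩ := SetLike.not_le_iff_exists.1 (fun e : R ≤ A ⊔ zpowers r => by
    have := card_le e; rw [c16, c8, s.card] at this; omega)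
  have c32 := CF.Invol.card_sup_zpowers (norm_of_der_le xR (s.der.trans le_sup_left) ht)
    (mem_sup_left (s.sq ht)) nt
  have e : A ⊔ zpowers r ⊔ zpowers t = R := eq_of_card_eq (sup_le xR (zpowers_le.2 ht))
    (by rw [c32, c16, c8, s.card])
  have rt : ⁅r, t⁆ ∈ A := s.der (commutator_mem_commutator hr ht)
  set U := zpowers z ⊔ zpowers ⁅r, t⁆
  have uA : U ≤ A := sup_le le_sup_right (zpowers_le.2 rt)
  have ra : ⁅R, A⁆ ≤ U := (commutator_le.2 fun _ hr _ ha => s.cz ha hr).trans le_sup_left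
  have n : R ≤ 𝐍 U := norm_of_comm_le' ((commutator_mono le_rfl uA).trans ra)
  have dU : ⁅R, R⁆ ≤ U := by
    have ca := (qt_cent_iff n (aR.trans n)).2 ra
    refine (abel_qt_iff n).1 ?_
    have x1 := zpowers_le.2 hr
    have x2 := zpowers_le.2 ht
    rw [← e, qt_sup (xR.trans n) (x2.trans n), qt_sup (aR.trans n) (x1.trans n)]
    refine ((s.elA.abel.qt U).sup ((abel_zpowers r).qt U) (cent_symm ((qt_mono U x1).trans ca))).sup
      ((abel_zpowers t).qt U) (sup_le (cent_symm ((qt_mono U x2).trans ca)) ?_)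
    rw [qt_zpowers (n hr), qt_zpowers (n ht), cent_zpowers, zpowers_le, mem_cent1,
      ← commutatorElement_eq_one_iff_mul_comm, ← qe_comm (n hr) (n ht)]
    exact qe_of_mem (mem_sup_right (mem_zpowers _))
  have c4 : ♯U ≤ 4 := by
    have := Nat.le_of_dvd (Nat.mul_pos (card_pos' _) (card_pos' _)) (card_sup_dvd (Or.inl
      (norm_of_cent (s.elA.abel.cent (le_sup_right : zpowers z ≤ A) (zpowers_le.2 rt)))))
    have o : ♯(zpowers ⁅r, t⁆) ≤ 2 := by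
      rw [Nat.card_zpowers]
      exact Nat.le_of_dvd two_pos (orderOf_dvd_of_pow_eq_one (s.elA.ab.pow _ rt))
    rw [s.elZ.card_one] at this
    exact this.trans (by omega)
  have nz : zpowers b ≤ 𝐍 (zpowers z) := norm_of_cent' (zpowers_le.2 s.k.zb)
  by_cases c : (⁅R, R⁆ ⊔ zpowers z) ⊓ Q = ⊥
  · refine (le_inf (le_sup_left (b := zpowers z)) s.der).trans ?_
    rw [inf_sup_right le_sup_right (Or.inr (norm_of_cent (zpowers_le.2
      (cent_anti s.f.le s.k.cen)))), c, bot_sup_eq]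
  · have := s.f.irr s.h inf_le_right (norm_inf (norm_sup (norm_commutator s.h.bH s.h.bH) nz) s.f.nm) c
    have l : A ≤ U := sup_le ((this ▸ inf_le_left : Q ≤ ⁅R, R⁆ ⊔ zpowers z).trans
      (sup_le dU le_sup_left)) le_sup_left
    have := card_le l
    omega

theorem extra (s : St V R Q b z) : IsExtraspecial 2 R := by
  have d : ⁅R, R⁆ = zpowers z := eq_of_prime_of_ne_bot s.elZ.card_prime s.der' fun e =>
    s.nc ((der_eq_bot.1 e).trans (cent_anti s.f.le))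
  refine ⟨CF.Coprime.isSpecial_iff.2 ⟨s.two.isPGroup, ?_, d.trans s.center.symm⟩, ?_⟩
  · refine le_antisymm (s.two.Phi_le_iff.2 ⟨d.le.trans s.center.ge, fun x hx =>
      ⟨pow_mem hx 2, mem_cent.2 fun y hy => ?_⟩⟩) (s.center.le.trans (d.ge.trans s.two.der_le_Phi))
    have := s.der' (commutator_mem_commutator hx hy)
    rw [eq_comm, pow_two, ← commutatorElement_eq_one_iff_mul_comm,
      comm_sq (mem_cent.1 (zpowers_le.2 s.k.cen this) x hx).symm]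
    exact s.k.sq this
  · rw [← card_map (H := Subgroup.center R) R.subtype_injective, center_map_subtype, s.center,
      s.elZ.card_one]

end St

theorem Cb.main (h : Cb V R b) (two : PiGrp {2} R) (cm : ⁅R, zpowers b⁆ = R) (f : Fo R b Q) :
    Elem 2 2 R R ∨ (IsExtraspecial 2 R ∧ ♯R = 32 ∧ ∃ A, Elem 2 3 A R) := by
  by_cases c : ∃ Q, Fo R b Q ∧ R ≤ 𝐂 Q
  · obtain ⟨Q, f, c⟩ := c
    obtain rfl := f.central h two cm c
    exact Or.inl f.el
  have nc : ∀ Q, Fo R b Q → ¬ R ≤ 𝐂 Q := fun Q f e => c ⟨Q, f, e⟩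
  obtain ⟨z, zR, k, inv⟩ := h.exZ two cm f nc
  obtain ⟨Q', f'⟩ := k.exFo h two cm f
  have f'' := f'.of_le (f'.le.trans inf_le_left)
  have s : St V R Q' b z := ⟨h, two, cm, k, zR, inv, f'', f'.le, nc _ f''⟩
  exact Or.inr ⟨s.extra, s.card, _, s.elA⟩

end CF.Cub
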